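import Mathlib
import Cfsg.Prelude.Def_OddOrderLocal
import Cfsg.Agent.Lib.Helper46.Amalgam
import Cfsg.Agent.Lib.Helper24.PRank

/-!
Basic tools for the Bender–Glauberman chain (helper35): relative Sylow subgroups
(`Helper46.IsSylowIn`), the set `σ(M)`, and minimal simple groups of odd order.
-/

set_option autoImplicit false

namespace Cfsg.Agent.Lib.Helper35.BG

open Cfsg Cfsg.Agent.Lib.Helper46

variable {G : Type*} [Group G]

/-! ### conjugation plumbing -/

theorem mem_map_conj_iff {H : Subgroup G} {g x : G} :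
    x ∈ H.map (MulAut.conj g).toMonoidHom ↔ g⁻¹ * x * g ∈ H := by
  constructor
  · rintro ⟨y, hy, rfl⟩
    have : g⁻¹ * ((MulAut.conj g).toMonoidHom y) * g = y := by
      simp [MulAut.conj_apply, mul_assoc]
    rw [this]; exact hy
  · intro h
    exact ⟨g⁻¹ * x * g, h, by simp [MulAut.conj_apply, mul_assoc]⟩

theorem conj_mem_map_conj {H : Subgroup G} (g : G) {x : G} (hx : x ∈ H) :
    g * x * g⁻¹ ∈ H.map (MulAut.conj g).toMonoidHom :=
  ⟨x, hx, by simp [MulAut.conj_apply]⟩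

theorem map_conj_mul (H : Subgroup G) (a b : G) :
    (H.map (MulAut.conj b).toMonoidHom).map (MulAut.conj a).toMonoidHom =
      H.map (MulAut.conj (a * b)).toMonoidHom := by
  ext x
  simp only [mem_map_conj_iff]
  have : b⁻¹ * (a⁻¹ * x * a) * b = (a * b)⁻¹ * x * (a * b) := by group
  rw [this]

theorem map_conj_one (H : Subgroup G) : H.map (MulAut.conj (1 : G)).toMonoidHom = H := by
  ext x
  simp

theorem card_map_conj [Finite G] (H : Subgroup G) (g : G) :
    Nat.card (H.map (MulAut.conj g).toMonoidHom) = Nat.card H :=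
  Subgroup.card_map_of_injective (f := (MulAut.conj g).toMonoidHom) (MulAut.conj g).injective

theorem isPGroup_map_conj {p : ℕ} {H : Subgroup G} (hH : IsPGroup p H) (g : G) :
    IsPGroup p (H.map (MulAut.conj g).toMonoidHom) :=
  hH.map _

theorem normalizer_map_conj (H : Subgroup G) (g : G) :
    Subgroup.normalizer ((H.map (MulAut.conj g).toMonoidHom : Subgroup G) : Set G) =
      (Subgroup.normalizer (H : Set G)).map (MulAut.conj g).toMonoidHom := by
  ext x
  rw [mem_map_conj_iff, Subgroup.mem_normalizer_iff, Subgroup.mem_normalizer_iff]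
  constructor
  · intro h y
    have h1 := h (g * y * g⁻¹)
    rw [mem_map_conj_iff, mem_map_conj_iff] at h1
    have e1 : g⁻¹ * (g * y * g⁻¹) * g = y := by group
    have e2 : g⁻¹ * (x * (g * y * g⁻¹) * x⁻¹) * g = g⁻¹ * x * g * y * (g⁻¹ * x * g)⁻¹ := by group
    rw [e1, e2] at h1
    exact h1
  · intro h y
    rw [mem_map_conj_iff, mem_map_conj_iff]
    have h1 := h (g⁻¹ * y * g)
    have e2 : g⁻¹ * x * g * (g⁻¹ * y * g) * (g⁻¹ * x * g)⁻¹ = g⁻¹ * (x * y * x⁻¹) * g := by group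
    rw [e2] at h1
    exact h1

theorem centralizer_le_normalizer' (H : Subgroup G) :
    Subgroup.centralizer (H : Set G) ≤ Subgroup.normalizer (H : Set G) := by
  intro c hc
  rw [Subgroup.mem_normalizer_iff]
  intro y
  rw [Subgroup.mem_centralizer_iff] at hc
  constructor
  · intro hy
    have : c * y * c⁻¹ = y := by rw [← hc y hy]; group
    rw [this]; exact hy
  · intro hy
    have h1 := hc _ hy
    have : y = c * y * c⁻¹ := by
      have : c * y = c * y * c⁻¹ * c := by group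
      have h2 : c * y * c⁻¹ * c = c * (c * y * c⁻¹) := h1
      have h3 : c * y = c * (c * y * c⁻¹) := this.trans h2
      exact mul_left_cancel h3
    rw [this]; exact hy

theorem map_conj_eq_of_mem_centralizer {H : Subgroup G} {c : G}
    (hc : c ∈ Subgroup.centralizer (H : Set G)) :
    H.map (MulAut.conj c).toMonoidHom = H :=
  map_conj_eq_of_mem_normalizer (centralizer_le_normalizer' H hc)

theorem centralizer_anti {H K : Subgroup G} (h : H ≤ K) :
    Subgroup.centralizer (K : Set G) ≤ Subgroup.centralizer (H : Set G) :=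
  Subgroup.centralizer_le h

theorem mem_normalizer_of_map_conj_eq {K : Subgroup G} {g : G}
    (h : K.map (MulAut.conj g).toMonoidHom = K) : g ∈ Subgroup.normalizer (K : Set G) :=
  Subgroup.mem_normalizer_iff_map_conj_eq.2 h

theorem card_lt_of_lt [Finite G] {H K : Subgroup G} (h : H < K) : Nat.card H < Nat.card K := by
  by_contra hc
  exact h.ne (Subgroup.eq_of_le_of_card_ge h.le (not_lt.mp hc))

/-! ### relative Sylow subgroups -/

theorem sylIn_isPGroup {p : ℕ} [Fact p.Prime] {E H : Subgroup G} (h : IsSylowIn p E H) :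
    IsPGroup p E :=
  IsPGroup.of_card h.2

theorem exists_isSylowIn_ge [Finite G] {p : ℕ} [Fact p.Prime] {Q H : Subgroup G}
    (hQ : IsPGroup p Q) (hQH : Q ≤ H) : ∃ R, IsSylowIn p R H ∧ Q ≤ R := by
  have h1 : IsPGroup p (Q.subgroupOf H) :=
    hQ.of_equiv (Subgroup.subgroupOfEquivOfLe hQH).symm
  obtain ⟨S, hS⟩ := h1.exists_le_sylow
  refine ⟨(S : Subgroup H).map H.subtype, isSylowIn_of_sylow S, ?_⟩
  intro x hx
  exact ⟨⟨x, hQH hx⟩, hS (Subgroup.mem_subgroupOf.mpr hx), rfl⟩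

theorem sylIn_card_le [Finite G] {p : ℕ} [Fact p.Prime] {E H Q : Subgroup G}
    (h : IsSylowIn p E H) (hQ : IsPGroup p Q) (hQH : Q ≤ H) : Nat.card Q ≤ Nat.card E := by
  obtain ⟨R, hR, hQR⟩ := exists_isSylowIn_ge hQ hQH
  rw [h.2, ← hR.2]
  exact Subgroup.card_le_of_le hQR

theorem sylIn_eq_of_le [Finite G] {p : ℕ} [Fact p.Prime] {E H Q : Subgroup G}
    (h : IsSylowIn p E H) (hQ : IsPGroup p Q) (hQH : Q ≤ H) (hEQ : E ≤ Q) : Q = E := by
  have h1 := sylIn_card_le h hQ hQH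
  exact (Subgroup.eq_of_le_of_card_ge hEQ h1).symm

theorem sylIn_map_conj [Finite G] {p : ℕ} {E H : Subgroup G} (h : IsSylowIn p E H) (g : G) :
    IsSylowIn p (E.map (MulAut.conj g).toMonoidHom) (H.map (MulAut.conj g).toMonoidHom) :=
  h.map (MulAut.conj g)

theorem sylIn_of_card_eq [Finite G] {p : ℕ} {E E' H : Subgroup G} (h : IsSylowIn p E H)
    (hE' : E' ≤ H) (hc : Nat.card E' = Nat.card E) : IsSylowIn p E' H :=
  ⟨hE', hc.trans h.2⟩

/-- A normal `p`-subgroup of `H` lies in every Sylow `p`-subgroup of `H`. -/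
theorem sylIn_normal_le [Finite G] {p : ℕ} [Fact p.Prime] {E H X : Subgroup G}
    (h : IsSylowIn p E H) (hX : IsPGroup p X) (hXH : X ≤ H)
    (hN : H ≤ Subgroup.normalizer (X : Set G)) : X ≤ E := by
  obtain ⟨R, hR, hXR⟩ := exists_isSylowIn_ge hX hXH
  obtain ⟨g, hg, rfl⟩ := hR.exists_conj h
  intro x hx
  rw [mem_map_conj_iff]
  have h1 : g⁻¹ ∈ Subgroup.normalizer (X : Set G) := hN (H.inv_mem hg)
  have h2 := (Subgroup.mem_normalizer_iff.mp h1 x).mp hx
  rw [inv_inv] at h2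
  exact hXR h2

/-- Sylow subgroup of a subgroup that happens to have the full `p`-part. -/
theorem sylIn_mono [Finite G] {p : ℕ} [Fact p.Prime] {E H K : Subgroup G}
    (h : IsSylowIn p E K) (hEH : E ≤ H) (hHK : H ≤ K) : IsSylowIn p E H := by
  obtain ⟨R, hR, hER⟩ := exists_isSylowIn_ge (sylIn_isPGroup h) hEH
  have h1 : R = E := sylIn_eq_of_le h (sylIn_isPGroup hR) (hR.1.trans hHK) hER
  rw [← h1]; exact hR

/-- In a `p`-group, a proper subgroup is properly contained in its normalizer. -/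
theorem exists_mem_normalizer_not_mem [Finite G] {p : ℕ} [Fact p.Prime] {X P : Subgroup G}
    (hP : IsPGroup p P) (hXP : X ≤ P) (hne : X ≠ P) :
    ∃ x ∈ P, x ∈ Subgroup.normalizer (X : Set G) ∧ x ∉ X := by
  have : Group.IsNilpotent P := hP.isNilpotent
  have hnc : NormalizerCondition P := Group.normalizerCondition_of_isNilpotent
  have h1 : X.subgroupOf P < ⊤ := by
    rw [lt_top_iff_ne_top]
    intro h
    apply hne
    apply le_antisymm hXP
    intro y hy
    have : (⟨y, hy⟩ : P) ∈ X.subgroupOf P := by rw [h]; exact Subgroup.mem_top _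
    exact Subgroup.mem_subgroupOf.mp this
  have h2 := hnc _ h1
  obtain ⟨x, hx1, hx2⟩ := SetLike.exists_of_lt h2
  refine ⟨x, x.2, ?_, fun h => hx2 (Subgroup.mem_subgroupOf.mpr h)⟩
  rw [Subgroup.mem_normalizer_iff] at hx1 ⊢
  intro y
  constructor
  · intro hy
    have := (hx1 ⟨y, hXP hy⟩).mp (Subgroup.mem_subgroupOf.mpr hy)
    exact Subgroup.mem_subgroupOf.mp this
  · intro hy
    have hyP : y ∈ P := by
      have h3 : y = (x : G)⁻¹ * ((x : G) * y * (x : G)⁻¹) * (x : G) := by group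
      rw [h3]
      exact P.mul_mem (P.mul_mem (P.inv_mem x.2) (hXP hy)) x.2
    have := (hx1 ⟨y, hyP⟩).mpr (Subgroup.mem_subgroupOf.mpr hy)
    exact Subgroup.mem_subgroupOf.mp this

/-! ### `σ(M)` -/

/-- For `p ∈ σ(M)`, the normalizer of every Sylow `p`-subgroup of `M` lies in `M`. -/
theorem normalizer_le_of_sigma [Finite G] {M : Subgroup G} {p : ℕ} [Fact p.Prime]
    (hp : p ∈ sigma M) {P : Subgroup G} (hP : IsSylowIn p P M) :
    Subgroup.normalizer (P : Set G) ≤ M := by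
  obtain ⟨-, -, P₀, hP₀⟩ := hp
  obtain ⟨m, hm, rfl⟩ := (isSylowIn_of_sylow P₀).exists_conj hP
  rw [normalizer_map_conj]
  intro x hx
  rw [mem_map_conj_iff] at hx
  have h1 := hP₀ hx
  have : x = m * (m⁻¹ * x * m) * m⁻¹ := by group
  rw [this]
  exact M.mul_mem (M.mul_mem hm h1) (M.inv_mem hm)

/-- For `p ∈ σ(M)`, a Sylow `p`-subgroup of `M` is a Sylow `p`-subgroup of `G`. -/
theorem isSylowIn_top_of_sigma [Finite G] {M : Subgroup G} {p : ℕ} [Fact p.Prime]
    (hp : p ∈ sigma M) {P : Subgroup G} (hP : IsSylowIn p P M) : IsSylowIn p P ⊤ := by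
  obtain ⟨S, hS, hPS⟩ := exists_isSylowIn_ge (sylIn_isPGroup hP) (le_top : P ≤ ⊤)
  by_cases hne : P = S
  · rw [hne]; exact hS
  · exfalso
    obtain ⟨x, hxS, hxN, hxP⟩ := exists_mem_normalizer_not_mem (sylIn_isPGroup hS) hPS hne
    have hxM : x ∈ M := normalizer_le_of_sigma hp hP hxN
    have h1 : S ⊓ M = P :=
      sylIn_eq_of_le hP ((sylIn_isPGroup hS).to_le inf_le_left) inf_le_right (le_inf hPS hP.1)
    exact hxP (h1 ▸ Subgroup.mem_inf.mpr ⟨hxS, hxM⟩)

/-! ### minimal simple groups of odd order -/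

theorem isSimpleGroup_of (hG : IsMinSimpleOddOrder G) : IsSimpleGroup G := hG.2.1

theorem isSolvable_of_ne_top (hG : IsMinSimpleOddOrder G) {H : Subgroup G} (hH : H ≠ ⊤) :
    Group.IsSolvable H := hG.2.2.2 H hH

theorem odd_card_subgroup [Finite G] (hG : IsMinSimpleOddOrder G) (H : Subgroup G) :
    Odd (Nat.card H) :=
  Odd.of_dvd_nat hG.1 (Subgroup.card_subgroup_dvd_card H)

theorem normalizer_ne_top (hG : IsMinSimpleOddOrder G) {X : Subgroup G} (hX : X ≠ ⊥)
    (hX' : X ≠ ⊤) : Subgroup.normalizer (X : Set G) ≠ ⊤ := by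
  intro h
  have := hG.2.1
  have hn : X.Normal := Subgroup.normalizer_eq_top_iff.mp h
  rcases hn.eq_bot_or_eq_top with h1 | h1
  · exact hX h1
  · exact hX' h1

theorem exists_coatom_ge [Finite G] {H : Subgroup G} (hH : H ≠ ⊤) :
    ∃ L : Subgroup G, IsCoatom L ∧ H ≤ L :=
  (eq_top_or_exists_le_coatom H).resolve_left hH

/-! ### ranks -/

theorem pRankLE_mono {p : ℕ} (hp : 0 < p) {k l : ℕ} (hkl : k ≤ l) {X : Type*} [Group X]
    (h : PRankLE p k X) : PRankLE p l X :=
  fun A hA hA' => (h A hA hA').trans (Nat.pow_le_pow_right hp hkl)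

/-- The `p`-rank of `H` is that of a Sylow `p`-subgroup. -/
theorem pRankLE_of_isSylowIn [Finite G] {p : ℕ} [Fact p.Prime] {k : ℕ} {R H : Subgroup G}
    (hR : IsSylowIn p R H) (h : PRankLE p k R) : PRankLE p k H := by
  rw [Cfsg.Agent.Lib.Helper24.pRankLE_subgroup_iff] at h ⊢
  intro A hAH hcomm hexp
  have hA : IsPGroup p A := by
    intro a
    refine ⟨1, ?_⟩
    rw [pow_one]
    exact Subtype.ext (hexp a a.2)
  obtain ⟨R', hR', hAR'⟩ := exists_isSylowIn_ge hA hAH
  obtain ⟨g, hg, rfl⟩ := hR.exists_conj hR'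
  have h1 := h (A.map (MulAut.conj g⁻¹).toMonoidHom) ?_ ?_ ?_
  · rwa [card_map_conj] at h1
  · intro x hx
    rw [mem_map_conj_iff] at hx
    have h2 := hAR' hx
    rw [mem_map_conj_iff] at h2
    rw [inv_inv] at hx h2
    have e : g⁻¹ * (g * x * g⁻¹) * g = x := by group
    rwa [e] at h2
  · rintro _ ⟨a, ha, rfl⟩ _ ⟨b, hb, rfl⟩
    have := hcomm a ha b hb
    simp only [MulEquiv.coe_toMonoidHom, MulAut.conj_apply]
    calc g⁻¹ * a * g⁻¹⁻¹ * (g⁻¹ * b * g⁻¹⁻¹) = g⁻¹ * (a * b) * g⁻¹⁻¹ := by group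
      _ = g⁻¹ * (b * a) * g⁻¹⁻¹ := by rw [this]
      _ = g⁻¹ * b * g⁻¹⁻¹ * (g⁻¹ * a * g⁻¹⁻¹) := by group
  · rintro _ ⟨a, ha, rfl⟩
    rw [← map_pow, hexp a ha, map_one]

theorem not_rankLE_of_not_pRankLE {p : ℕ} [Fact p.Prime] {k : ℕ} {X : Type*} [Group X]
    (h : ¬ PRankLE p k X) : ¬ RankLE k X :=
  fun h' => h (h' p Fact.out)

end Cfsg.Agent.Lib.Helper35.BG
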