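import Mathlib
import Cfsg.Statements.S1403
import Cfsg.Agent.Lib.Helper35.BG.Basic
import Cfsg.Agent.Lib.Helper49.PPrimeP
import Cfsg.Agent.Lib.Helper55.Cores
import Cfsg.Agent.S1450

/-!
Bender–Glauberman Lemma 10.1 (statement S1404), with the Uniqueness Theorem (S1403) as a
hypothesis (helper35).
-/

set_option autoImplicit false

namespace Cfsg.Agent.Lib.Helper35.BG

open Cfsg Cfsg.Agent.Lib.Helper46

variable {G : Type*} [Group G] [Finite G]

/-- A normal `p'`-subgroup of `H ≤ N(X)` centralizes the `p`-group `X ≤ H`. -/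
theorem mem_centralizer_of_pPrimeCore {p : ℕ} [Fact p.Prime] {X H : Subgroup G}
    (hX : IsPGroup p X) (hXH : X ≤ H) (hHN : H ≤ Subgroup.normalizer (X : Set G))
    (k : ↥H) (hk : k ∈ pPrimeCore p ↥H) :
    (k : G) ∈ Subgroup.centralizer (X : Set G) := by
  have hN : (pPrimeCore p ↥H).Normal := Cfsg.Agent.Lib.Helper22.pPrimeCore_normal' p ↥H
  have hcop : (Nat.card (pPrimeCore p ↥H)).Coprime p :=
    Cfsg.Agent.Lib.Helper55.pPrimeCore_coprime p ↥H
  set N' : Subgroup G := (pPrimeCore p ↥H).map H.subtype with hN'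
  have hcardN' : Nat.card N' = Nat.card (pPrimeCore p ↥H) :=
    Subgroup.card_map_of_injective H.subtype_injective
  obtain ⟨j, hj⟩ := IsPGroup.iff_card.mp hX
  have hdisj : Disjoint X N' := by
    apply Subgroup.disjoint_of_coprime_natCard
    rw [hj, hcardN']
    exact (Nat.Coprime.pow_right j hcop).symm
  rw [Subgroup.mem_centralizer_iff]
  intro x hx
  have hxH : x ∈ H := hXH hx
  have h1 : (k : G) * x * (k : G)⁻¹ * x⁻¹ ∈ X := by
    have := (Subgroup.mem_normalizer_iff.mp (hHN k.2) x).mp hx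
    exact X.mul_mem this (X.inv_mem hx)
  have h2 : (k : G) * x * (k : G)⁻¹ * x⁻¹ ∈ N' := by
    have h3 : (⟨x, hxH⟩ : ↥H) * k⁻¹ * (⟨x, hxH⟩ : ↥H)⁻¹ ∈ pPrimeCore p ↥H :=
      hN.conj_mem _ (Subgroup.inv_mem _ hk) _
    refine ⟨k * ((⟨x, hxH⟩ : ↥H) * k⁻¹ * (⟨x, hxH⟩ : ↥H)⁻¹), Subgroup.mul_mem _ hk h3, ?_⟩
    simp [mul_assoc]
  have h4 : (k : G) * x * (k : G)⁻¹ * x⁻¹ = 1 :=
    Subgroup.disjoint_def.mp hdisj h1 h2
  have h5 : (k : G) * x = (k : G) * x * (k : G)⁻¹ * x⁻¹ * (x * (k : G)) := by group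
  rw [h4, one_mul] at h5
  exact h5.symm

/-- Frattini argument in `N(X)` when a Sylow `p`-subgroup `R` of `N(X)` has rank at most 2:
`N(X) ⊆ N(R) C(X)`. -/
theorem normalizer_factor_rank_two (hG : IsMinSimpleOddOrder G) {p : ℕ} [Fact p.Prime]
    {X R : Subgroup G} (hX : IsPGroup p X) (hX1 : X ≠ ⊥) (hXtop : X ≠ ⊤)
    (hR : IsSylowIn p R (Subgroup.normalizer (X : Set G))) (hr : PRankLE p 2 R) :
    ∀ n ∈ Subgroup.normalizer (X : Set G), ∃ a ∈ Subgroup.normalizer (R : Set G),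
      ∃ k ∈ Subgroup.centralizer (X : Set G), n = a * k := by
  set H := Subgroup.normalizer (X : Set G) with hH
  have hHtop : H ≠ ⊤ := normalizer_ne_top hG hX1 hXtop
  have hsolv : Group.IsSolvable ↥H := isSolvable_of_ne_top hG hHtop
  have hodd : Odd (Nat.card ↥H) := odd_card_subgroup hG H
  have hpp : p.Prime := Fact.out
  have hpH : p ∣ Nat.card ↥H := by
    obtain ⟨j, hj⟩ := IsPGroup.iff_card.mp hX
    have hj0 : j ≠ 0 := by
      rintro rfl
      rw [pow_zero] at hj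
      exact hX1 (Subgroup.card_eq_one.mp hj)
    have h1 : Nat.card X ∣ Nat.card H := Subgroup.card_dvd_of_le Subgroup.le_normalizer
    rw [hj] at h1
    exact dvd_trans (dvd_pow_self p hj0) h1
  have hr2 : PRankLE p 2 ↥H := pRankLE_of_isSylowIn hR hr
  obtain ⟨-, -, -, -, -, hidx⟩ := Cfsg.Agent.S1450.result hodd p hpH hr2
  obtain ⟨S, hS⟩ := hR.exists_sylow
  have hKn := Cfsg.Agent.Lib.Helper49.pPrimePCore_normal p ↥H
  have hSK : (S : Subgroup ↥H) ≤ pPrimePCore p ↥H := by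
    intro x hx
    obtain ⟨j, hj⟩ := (S.isPGroup' ⟨x, hx⟩)
    have hj' : x ^ p ^ j = 1 := by
      have := congrArg Subtype.val hj
      simpa using this
    have hord : orderOf x ∣ p ^ j := orderOf_dvd_of_pow_eq_one hj'
    have hc : ((pPrimePCore p ↥H).index).Coprime (orderOf x) :=
      Nat.Coprime.coprime_dvd_right hord (Nat.Coprime.pow_right j hidx)
    obtain ⟨m, hm⟩ := exists_pow_eq_self_of_coprime hc
    rw [← hm]
    exact Subgroup.pow_mem _ (Subgroup.pow_index_mem _ x) m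
  have hfr := Cfsg.Agent.Lib.Helper49.normalizer_inf_pPrimePCore_sup S
  rw [inf_eq_left.mpr hSK] at hfr
  have hNn : (pPrimeCore p ↥H).Normal := Cfsg.Agent.Lib.Helper22.pPrimeCore_normal' p ↥H
  intro n hn
  have hmem : (⟨n, hn⟩ : ↥H) ∈
      Subgroup.normalizer (((S : Subgroup ↥H) : Subgroup ↥H) : Set ↥H) ⊔ pPrimeCore p ↥H := by
    rw [hfr]; exact Subgroup.mem_top _
  rw [Subgroup.mem_sup_of_normal_right] at hmem
  obtain ⟨a, ha, k, hk, hak⟩ := hmem
  refine ⟨(a : G), ?_, (k : G),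
    mem_centralizer_of_pPrimeCore hX Subgroup.le_normalizer le_rfl k hk, ?_⟩
  · rw [← hS, Subgroup.mem_normalizer_iff]
    intro y
    constructor
    · rintro ⟨y', hy', rfl⟩
      exact ⟨a * y' * a⁻¹, (Subgroup.mem_normalizer_iff.mp ha y').mp hy', rfl⟩
    · rintro ⟨z, hz, hzeq⟩
      have hyH : y ∈ H := by
        have h3 : y = (a : G)⁻¹ * ((a : G) * y * (a : G)⁻¹) * (a : G) := by group
        rw [h3]
        have hzH : (a : G) * y * (a : G)⁻¹ ∈ H := by
          have : ((H.subtype z : G)) ∈ H := z.2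
          rw [hzeq] at this; exact this
        exact H.mul_mem (H.mul_mem (H.inv_mem a.2) hzH) a.2
      refine ⟨⟨y, hyH⟩, ?_, rfl⟩
      apply (Subgroup.mem_normalizer_iff.mp ha ⟨y, hyH⟩).mpr
      have : a * (⟨y, hyH⟩ : ↥H) * a⁻¹ = z := by
        apply Subtype.ext
        simpa using hzeq.symm
      rw [this]; exact hz
  · have := congrArg Subtype.val hak
    simpa using this.symm

/-- BG Lemma 10.1(a): for `p ∈ σ(M)` and a nontrivial `p`-subgroup `X` of `M`, if `gXg⁻¹ ≤ M`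
then `g ∈ M C(X)`.  The Uniqueness Theorem (S1403) is a hypothesis. -/
theorem s1404_conj (hG : IsMinSimpleOddOrder G)
    (h1403 : type_of% (@Cfsg.CfsgFrozen.S1403 G _ _ hG))
    (M : Subgroup G) (hM : IsCoatom M) (p : ℕ) [Fact p.Prime] (hp : p ∈ sigma M) :
    ∀ n : ℕ, ∀ X : Subgroup G, IsPGroup p X → X ≠ ⊥ → X ≤ M → Nat.card G - Nat.card X = n →
      ∀ g : G, X.map (MulAut.conj g).toMonoidHom ≤ M →
        ∃ m ∈ M, ∃ c ∈ Subgroup.centralizer (X : Set G), g = m * c := by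
  intro n
  induction n using Nat.strong_induction_on with
  | _ n ih =>
  intro X hXp hX1 hXM hn g hg
  have hMtop : M ≠ ⊤ := hM.1
  have hXtop : X ≠ ⊤ := fun h => hMtop (top_le_iff.mp (h ▸ hXM))
  -- the induction hypothesis in usable form
  have IH : ∀ R : Subgroup G, IsPGroup p R → R ≤ M → Nat.card X < Nat.card R →
      ∀ g : G, R.map (MulAut.conj g).toMonoidHom ≤ M →
        ∃ m ∈ M, ∃ c ∈ Subgroup.centralizer (R : Set G), g = m * c := by
    intro R hRp hRM hlt g' hg'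
    have hR1 : R ≠ ⊥ := by
      rintro rfl
      rw [Subgroup.card_bot] at hlt
      have : 0 < Nat.card X := Nat.card_pos
      omega
    have hle : Nat.card R ≤ Nat.card G := Subgroup.card_le_card_group R
    exact ih (Nat.card G - Nat.card R) (by omega) R hRp hR1 hRM rfl g' hg'
  by_cases hXS : IsSylowIn p X M
  · -- `X` is a Sylow subgroup of `M`
    have hgS : IsSylowIn p (X.map (MulAut.conj g).toMonoidHom) M :=
      sylIn_of_card_eq hXS hg (card_map_conj X g)
    obtain ⟨m, hm, hmeq⟩ := hgS.exists_conj hXS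
    rw [map_conj_mul] at hmeq
    have h1 : m * g ∈ Subgroup.normalizer (X : Set G) :=
      mem_normalizer_of_map_conj_eq hmeq.symm
    have h2 : m * g ∈ M := normalizer_le_of_sigma hp hXS h1
    refine ⟨g, ?_, 1, Subgroup.one_mem _, (mul_one g).symm⟩
    have : g = m⁻¹ * (m * g) := by group
    rw [this]
    exact M.mul_mem (M.inv_mem hm) h2
  · -- `X` is not a Sylow subgroup of `M`
    -- Step 1: a Sylow subgroup of `N(X')` inside `M`, bigger than `X'`
    have step1 : ∀ X' : Subgroup G, IsPGroup p X' → X' ≤ M → Nat.card X' = Nat.card X →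
        ∃ R, IsSylowIn p R (Subgroup.normalizer (X' : Set G)) ∧ R ≤ M ∧ X' ≤ R ∧
          Nat.card X' < Nat.card R := by
      intro X' hX'p hX'M hcard
      have hX'S : ¬ IsSylowIn p X' M := fun h => hXS (sylIn_of_card_eq h hXM hcard.symm)
      obtain ⟨P₁, hP₁, hX'P₁⟩ := exists_isSylowIn_ge hX'p hX'M
      have hne : X' ≠ P₁ := fun h => hX'S (h ▸ hP₁)
      obtain ⟨x, hxP, hxN, hxX⟩ := exists_mem_normalizer_not_mem (sylIn_isPGroup hP₁) hX'P₁ hne
      set X₁ := P₁ ⊓ Subgroup.normalizer (X' : Set G) with hX₁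
      have hX₁p : IsPGroup p X₁ := (sylIn_isPGroup hP₁).to_le inf_le_left
      have hX'X₁ : X' ≤ X₁ := le_inf hX'P₁ Subgroup.le_normalizer
      have hlt : Nat.card X' < Nat.card X₁ := by
        apply card_lt_of_lt
        refine lt_of_le_of_ne hX'X₁ (fun h => hxX ?_)
        rw [h]; exact Subgroup.mem_inf.mpr ⟨hxP, hxN⟩
      have hX₁M : X₁ ≤ M := inf_le_left.trans hP₁.1
      obtain ⟨R₀, hR₀, hX₁R₀⟩ := exists_isSylowIn_ge hX₁p (inf_le_right : X₁ ≤ _)
      obtain ⟨S, hS, hR₀S⟩ := exists_isSylowIn_ge (sylIn_isPGroup hR₀) (le_top : R₀ ≤ ⊤)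
      obtain ⟨a, -, rfl⟩ := (isSylowIn_top_of_sigma hp hP₁).exists_conj hS
      -- `X₁ ≤ a P₁ a⁻¹`, so `a⁻¹ X₁ a ≤ M`
      have h1 : X₁.map (MulAut.conj a⁻¹).toMonoidHom ≤ M := by
        intro y hy
        rw [mem_map_conj_iff, inv_inv] at hy
        have h2 := hR₀S (hX₁R₀ hy)
        rw [mem_map_conj_iff] at h2
        have e : a⁻¹ * (a * y * a⁻¹) * a = y := by group
        rw [e] at h2
        exact hP₁.1 h2
      obtain ⟨m, hm, c, hc, hac⟩ := IH X₁ hX₁p hX₁M (by omega) a⁻¹ h1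
      have hcX' : c ∈ Subgroup.centralizer (X' : Set G) := centralizer_anti hX'X₁ hc
      have hcN : c ∈ Subgroup.normalizer (X' : Set G) := centralizer_le_normalizer' X' hcX'
      refine ⟨R₀.map (MulAut.conj c).toMonoidHom, ?_, ?_, ?_, ?_⟩
      · have := sylIn_map_conj hR₀ c
        rwa [map_conj_eq_of_mem hcN] at this
      · intro y hy
        rw [mem_map_conj_iff] at hy
        have h2 := hR₀S hy
        rw [mem_map_conj_iff] at h2
        have h3 := hP₁.1 h2
        -- `a⁻¹ c⁻¹ y c a ∈ M` and `a⁻¹ = m c`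
        have e : y = m⁻¹ * (a⁻¹ * (c⁻¹ * y * c) * a) * m := by
          have ha : a = c⁻¹ * m⁻¹ := by
            rw [← inv_inv a, hac]; group
          rw [hac, ha]; group
        rw [e]
        exact M.mul_mem (M.mul_mem (M.inv_mem hm) h3) hm
      · intro y hy
        rw [mem_map_conj_iff]
        have h2 : c⁻¹ * y * c = y := by
          have := (Subgroup.mem_centralizer_iff.mp hcX') y hy
          calc c⁻¹ * y * c = c⁻¹ * (y * c) := by group
            _ = c⁻¹ * (c * y) := by rw [this]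
            _ = y := by group
        rw [h2]
        exact hX₁R₀ (hX'X₁ hy)
      · rw [card_map_conj]
        exact lt_of_lt_of_le hlt (Subgroup.card_le_of_le hX₁R₀)
    -- Step 3: `N(X) ⊆ M C(X)`
    have step3 : ∀ n' ∈ Subgroup.normalizer (X : Set G), ∃ m ∈ M,
        ∃ c ∈ Subgroup.centralizer (X : Set G), n' = m * c := by
      obtain ⟨R, hR, hRM, hXR, hlt⟩ := step1 X hXp hXM rfl
      have hRp : IsPGroup p R := sylIn_isPGroup hR
      intro n' hn'
      by_cases hr : PRankLE p 2 R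
      · obtain ⟨a, ha, k, hk, rfl⟩ := normalizer_factor_rank_two hG hXp hX1 hXtop hR hr n' hn'
        have h1 : R.map (MulAut.conj a).toMonoidHom ≤ M := by
          rw [map_conj_eq_of_mem_normalizer ha]; exact hRM
        obtain ⟨m, hm, c, hc, rfl⟩ := IH R hRp hRM hlt a h1
        refine ⟨m, hm, c * k, Subgroup.mul_mem _ (centralizer_anti hXR hc) hk, by group⟩
      · have hRtop : R ≠ ⊤ := fun h => hMtop (top_le_iff.mp (h ▸ hRM))
        have hr1 : ¬ RankLE 1 R := fun h =>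
          hr (pRankLE_mono (Fact.out : p.Prime).pos (by norm_num) (h p Fact.out))
        have huniq := h1403 R hRtop hr1 (Or.inl (not_rankLE_of_not_pRankLE hr))
        obtain ⟨L, hL, hNL⟩ := exists_coatom_ge (normalizer_ne_top hG hX1 hXtop)
        have hLM : L = M :=
          huniq.unique ⟨hL, hR.1.trans hNL⟩ ⟨hM, hRM⟩
        exact ⟨n', hLM ▸ hNL hn', 1, Subgroup.one_mem _, (mul_one n').symm⟩
    -- Step 2
    obtain ⟨R, hR, hRM, hXR, hlt⟩ := step1 X hXp hXM rfl
    obtain ⟨R', hR', hR'M, -, -⟩ := step1 (X.map (MulAut.conj g).toMonoidHom)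
      (isPGroup_map_conj hXp g) hg (card_map_conj X g)
    have hRg := sylIn_map_conj hR g
    rw [← normalizer_map_conj] at hRg
    obtain ⟨h', hh', rfl⟩ := hRg.exists_conj hR'
    rw [map_conj_mul] at hR'M
    obtain ⟨m, hm, c, hc, hmc⟩ := IH R (sylIn_isPGroup hR) hRM hlt (h' * g) hR'M
    -- `h' = g h g⁻¹` with `h ∈ N(X)`
    rw [normalizer_map_conj, mem_map_conj_iff] at hh'
    have hcN : c ∈ Subgroup.normalizer (X : Set G) :=
      centralizer_le_normalizer' X (centralizer_anti hXR hc)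
    have hn' : c * (g⁻¹ * h' * g)⁻¹ ∈ Subgroup.normalizer (X : Set G) :=
      Subgroup.mul_mem _ hcN (Subgroup.inv_mem _ hh')
    obtain ⟨m₁, hm₁, c₁, hc₁, hmc₁⟩ := step3 _ hn'
    refine ⟨m * m₁, M.mul_mem hm hm₁, c₁, hc₁, ?_⟩
    calc g = (h' * g) * (g⁻¹ * h' * g)⁻¹ := by group
      _ = (m * c) * (g⁻¹ * h' * g)⁻¹ := by rw [hmc]
      _ = m * (c * (g⁻¹ * h' * g)⁻¹) := by group
      _ = m * (m₁ * c₁) := by rw [hmc₁]
      _ = m * m₁ * c₁ := by group

/-- BG Lemma 10.1 = statement S1404, with S1403 as a hypothesis. -/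
theorem s1404_core (hG : IsMinSimpleOddOrder G)
    (h1403 : type_of% (@Cfsg.CfsgFrozen.S1403 G _ _ hG))
    (M : Subgroup G) (hM : IsCoatom M) (p : ℕ) [Fact p.Prime] (hp : p ∈ Cfsg.sigma M)
    (X : Subgroup G) (hXp : IsPGroup p X) (hX1 : X ≠ ⊥) (hXM : X ≤ M) :
    (∀ g : G, X.map (MulAut.conj g).toMonoidHom ≤ M →
        ∃ m ∈ M, ∃ c ∈ Subgroup.centralizer (X : Set G), g = m * c) ∧
      Subgroup.normalizer (X : Set G) =
        (M ⊓ Subgroup.normalizer (X : Set G)) ⊔ Subgroup.centralizer (X : Set G) := by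
  have ha : ∀ g : G, X.map (MulAut.conj g).toMonoidHom ≤ M →
      ∃ m ∈ M, ∃ c ∈ Subgroup.centralizer (X : Set G), g = m * c :=
    fun g hg => s1404_conj hG h1403 M hM p hp _ X hXp hX1 hXM rfl g hg
  refine ⟨ha, le_antisymm ?_ (sup_le inf_le_right (centralizer_le_normalizer' X))⟩
  intro n hn
  have h1 : X.map (MulAut.conj n).toMonoidHom ≤ M := by
    rw [map_conj_eq_of_mem_normalizer hn]; exact hXM
  obtain ⟨m, hm, c, hc, rfl⟩ := ha n h1
  have hcN := centralizer_le_normalizer' X hc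
  have hmN : m ∈ Subgroup.normalizer (X : Set G) := by
    have : m = m * c * c⁻¹ := by group
    rw [this]
    exact Subgroup.mul_mem _ hn (Subgroup.inv_mem _ hcN)
  exact Subgroup.mul_mem_sup (Subgroup.mem_inf.mpr ⟨hm, hmN⟩) hc

end Cfsg.Agent.Lib.Helper35.BG
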